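import Cfsg.Agent.H186.OT.Iface
import Cfsg.Agent.H428.OT.Lau

/-!
# S2539, part 3.1 / 3.2 for `G2` (helper18)

`noEl_two` : `D = chevG2`, `13 ≤ |K|`, `2 ≠ 0`, `T ≤ F`, `Ctx (T.subgroupOf F)`, the action of `N_F(T)` on the roots
(`Act`), and `Psi D K F` is not contained in `{a | ⟨a, r^∨⟩ even}` for any root `r`: then `NoElF D K F 2`.
-/

set_option autoImplicit false

namespace Cfsg.Agent.H18.OT

open Subgroup Cfsg.Lie Cfsg.Agent.H412.OT Cfsg.Agent.H186.OT
open Cfsg.Agent.ChevalleyStructure Cfsg.Agent.ChevalleyStructure.Elts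

universe u

/-! ### The table -/

/-- the roots of `G2` -/
abbrev R := Fin chevG2.nroots

/-- first simple root -/
def s0 : R := ⟨7, by decide⟩

/-- second simple root -/
def s1 : R := ⟨6, by decide⟩

/-- the pairing on `R` -/
def P (r s : R) : ℤ := pr chevG2 r s

/-- the opposite root -/
def ng (r : R) : R := ⟨11 - r, lt_of_le_of_lt (Nat.sub_le _ _) (by decide)⟩

theorem P_bd : ∀ r s : R, -3 ≤ P r s ∧ P r s ≤ 3 := by decide +kernel

theorem P_inj : ∀ x y : R, P s0 x = P s0 y → P s1 x = P s1 y → x = y := by decide +kernel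

theorem P_cd : ∀ c d : R, P c d = P s0 s1 → P d c = P s1 s0 → ∀ x y : R, P c x = P c y → P d x = P d y → x = y := by
  decide +kernel

/-- an involution of the Weyl group fixes a root or is `-1` -/
theorem tab1 : ∀ c d : R, P c d = P s0 s1 → P d c = P s1 s0 → P s0 c = P c s0 → P s1 d = P d s1 → P s1 c = P d s0 →
    P c s1 = P s0 d → (∃ g : R, P c g = P s0 g ∧ P d g = P s1 g) ∨ (c = ng s0 ∧ d = ng s1) := by
  decide +kernel

theorem tab_neg : ∀ s : R, P (ng s0) (ng s) = P s0 s ∧ P (ng s1) (ng s) = P s1 s := by decide +kernel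

theorem tab_cd_neg : P (ng s0) (ng s1) = P s0 s1 ∧ P (ng s1) (ng s0) = P s1 s0 := by decide +kernel

theorem cartan_neg : ∀ i < 2, ∀ s : R, chevG2.cartan i (ng s) = - chevG2.cartan i s := by decide +kernel

/-- the image of `s` under the element of the Weyl group with `s0 ↦ c`, `s1 ↦ d` -/
def im (c d s : R) : R :=
  ((List.finRange chevG2.nroots).find? fun x => decide (P c x = P s0 s) && decide (P d x = P s1 s)).getD s0

theorem im6 : ∀ c d : R, P c d = P s0 s1 → P d c = P s1 s0 → ∀ s : R,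
    im c d (im c d (im c d (im c d (im c d (im c d s))))) = s := by decide +kernel

theorem tab_sum : ∃ r : R, ∀ s : R, Even (P r s) ↔ Even (P s0 s + P s1 s) := by decide +kernel

section W

variable {w : Equiv.Perm R} (hw : ∀ r s, P (w r) (w s) = P r s)

include hw

theorem w_im (s : R) : w s = im (w s0) (w s1) s := by
  unfold im
  have hex : ((List.finRange chevG2.nroots).find? fun x =>
      decide (P (w s0) x = P s0 s) && decide (P (w s1) x = P s1 s)).isSome = true := by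
    rw [List.find?_isSome]
    refine ⟨w s, List.mem_finRange _, ?_⟩
    simp only [hw, decide_true, Bool.and_self]
  obtain ⟨x, hx⟩ := Option.isSome_iff_exists.1 hex
  rw [hx]
  have h1 := List.find?_some hx
  simp only [Bool.and_eq_true, decide_eq_true_eq] at h1
  exact P_cd _ _ (hw _ _) (hw _ _) _ _ ((hw _ _).trans h1.1.symm) ((hw _ _).trans h1.2.symm)

theorem w_six (s : R) : w (w (w (w (w (w s))))) = s := by
  have h := im6 _ _ (hw s0 s1) (hw s1 s0) s
  rw [← w_im hw, ← w_im hw, ← w_im hw, ← w_im hw, ← w_im hw, ← w_im hw] at h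
  exact h

theorem w_two (h2 : ∀ s, w (w s) = s) : (∃ g, w g = g) ∨ ∀ s, w s = ng s := by
  have h0 := h2 s0
  have h1 := h2 s1
  have ha : P s0 (w s0) = P (w s0) s0 := by
    have := hw s0 (w s0)
    rw [h0] at this
    exact this.symm
  have hb : P s1 (w s1) = P (w s1) s1 := by
    have := hw s1 (w s1)
    rw [h1] at this
    exact this.symm
  have hc : P s1 (w s0) = P (w s1) s0 := by
    have := hw s1 (w s0)
    rw [h0] at this
    exact this.symm
  have hd : P (w s0) s1 = P s0 (w s1) := by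
    have := hw s0 (w s1)
    rw [h1] at this
    exact this
  rcases tab1 (w s0) (w s1) (hw _ _) (hw _ _) ha hb hc hd with ⟨g, h3, h4⟩ | ⟨h3, h4⟩
  · refine Or.inl ⟨g, ?_⟩
    exact P_cd _ _ (hw s0 s1) (hw s1 s0) _ _ ((hw _ _).trans h3.symm) ((hw _ _).trans h4.symm)
  · refine Or.inr fun s => ?_
    apply P_cd _ _ tab_cd_neg.1 tab_cd_neg.2
    · rw [← h3, hw, h3, (tab_neg s).1]
    · rw [← h4, hw, h4, (tab_neg s).2]

end W

/-! ### The torus -/

variable {K : Type u} [Field K]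

theorem hD : InList chevG2 := by simp [InList]

theorem eq_of_chi {t t' : GL chevG2.Idx K} (ht : t ∈ chevG2.diagonalSubgroup K)
    (ht' : t' ∈ chevG2.diagonalSubgroup K) (h : ∀ s : R, chi chevG2 K t s = chi chevG2 K t' s) : t = t' := by
  apply Units.ext
  rw [coe_tor hD ht, coe_tor hD ht']
  congr 1
  funext x
  rcases x with i | s
  · rfl
  · rw [Sum.elim_inr, Sum.elim_inr]
    exact h s

theorem chi_ng {t : GL chevG2.Idx K} (ht : t ∈ chevG2.diagonalSubgroup K) (s : R) :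
    chi chevG2 K t (ng s) = (chi chevG2 K t s)⁻¹ := by
  obtain ⟨c, hc, e, -⟩ := tor_data hD ht
  rw [chi, chi, dif_pos (ng s).2, dif_pos s.2, e, Matrix.diagonal_apply_eq, Matrix.diagonal_apply_eq, Sum.elim_inr,
    Sum.elim_inr, ← Finset.prod_inv_distrib]
  refine Finset.prod_congr rfl fun i hi => ?_
  have h1 : chevG2.cartan i (ng s) = - chevG2.cartan i s := cartan_neg i (Finset.mem_range.1 hi) s
  show c i ^ chevG2.cartan i (ng s) = (c i ^ chevG2.cartan i s)⁻¹
  rw [h1, zpow_neg]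

theorem chi_inv' {t : GL chevG2.Idx K} (ht : t ∈ chevG2.diagonalSubgroup K) (s : ℕ) :
    chi chevG2 K t⁻¹ s = (chi chevG2 K t s)⁻¹ := by
  have h := chi_mul hD ht (inv_mem ht) s
  rw [mul_inv_cancel, chi_one] at h
  exact eq_inv_of_mul_eq_one_right h.symm

theorem chi_h {c : K} (hc : c ≠ 0) (r s : R) : chi chevG2 K (hG hD r c) s = c ^ P r s :=
  chi_hG hD r.2 s.2 hc

theorem chi_pow {t : GL chevG2.Idx K} (ht : t ∈ chevG2.diagonalSubgroup K) (s : ℕ) (n : ℕ) :
    chi chevG2 K (t ^ n) s = chi chevG2 K t s ^ n := by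
  induction n with
  | zero => rw [pow_zero, pow_zero, chi_one]
  | succ n ih => rw [pow_succ, pow_succ, chi_mul hD (pow_mem ht n) ht, ih]

theorem conj_mem {n t : GL chevG2.Idx K} (hn : n ∈ normalizer (chevG2.diagonalSubgroup K : Set (GL chevG2.Idx K)))
    (ht : t ∈ chevG2.diagonalSubgroup K) : n * t * n⁻¹ ∈ chevG2.diagonalSubgroup K :=
  (mem_normalizer_iff.1 hn t).1 ht

/-- `w` is the permutation of the roots afforded by `n` -/
structure Afford (n : GL chevG2.Idx K) (w : Equiv.Perm R) : Prop where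
  pr : ∀ r s, P (w r) (w s) = P r s
  chi : ∀ t ∈ chevG2.diagonalSubgroup K, ∀ s, chi chevG2 K (n * t * n⁻¹) (w s) = Cfsg.Agent.H412.OT.chi chevG2 K t s

theorem Afford.conj_h {n : GL chevG2.Idx K} {w : Equiv.Perm R} (h : Afford n w)
    (hn : n ∈ normalizer (chevG2.diagonalSubgroup K : Set (GL chevG2.Idx K))) {c : K} (hc : c ≠ 0) (r : R) :
    n * hG hD r c * n⁻¹ = hG hD (w r) c := by
  apply eq_of_chi (conj_mem hn (hG_mem hD r.2 hc)) (hG_mem hD (w r).2 hc)
  intro s
  obtain ⟨s, rfl⟩ := w.surjective s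
  rw [h.chi _ (hG_mem hD r.2 hc), chi_h hc, chi_h hc, h.pr]

variable [Fintype K]

theorem exists_gen (K : Type u) [Field K] [Fintype K] : ∃ γ : Kˣ, orderOf γ = Fintype.card K - 1 := by
  classical
  obtain ⟨γ, hγ⟩ := IsCyclic.exists_generator (α := Kˣ)
  refine ⟨γ, ?_⟩
  rw [orderOf_eq_card_of_forall_mem_zpowers hγ, Nat.card_units, Nat.card_eq_fintype_card]

theorem eq_of_zpow {γ : Kˣ} (hγ : orderOf γ = Fintype.card K - 1) {a b : ℤ} (h : ((γ : K)) ^ a = (γ : K) ^ b) :
    ((Fintype.card K - 1 : ℕ) : ℤ) ∣ a - b := by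
  have h1 : γ ^ a = γ ^ b := by
    apply Units.ext
    rw [Units.val_zpow_eq_zpow_val, Units.val_zpow_eq_zpow_val, h]
  rw [← hγ]
  apply orderOf_dvd_iff_zpow_eq_one.2
  rw [zpow_sub, h1, mul_inv_cancel]

theorem chi_inj (hq : 13 ≤ Fintype.card K) {x y : R}
    (h : ∀ t ∈ chevG2.diagonalSubgroup K, chi chevG2 K t x = chi chevG2 K t y) : x = y := by
  obtain ⟨γ, hγ⟩ := exists_gen K
  have key : ∀ r : R, P r x = P r y := by
    intro r
    have h1 := h _ (hG_mem (K := K) hD r.2 γ.ne_zero)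
    rw [chi_h γ.ne_zero, chi_h γ.ne_zero] at h1
    have h2 := eq_of_zpow hγ h1
    obtain ⟨k, hk⟩ := h2
    have b1 := P_bd r x
    have b2 := P_bd r y
    have hc : (12 : ℤ) ≤ ((Fintype.card K - 1 : ℕ) : ℤ) := by
      have : 12 ≤ Fintype.card K - 1 := by omega
      exact_mod_cast this
    have hk0 : k = 0 := by
      by_contra hk0
      rcases lt_or_gt_of_ne hk0 with h | h
      · have : k ≤ -1 := by omega
        nlinarith
      · have : 1 ≤ k := by omega
        nlinarith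
    rw [hk0, mul_zero] at hk
    omega
  exact P_inj x y (key s0) (key s1)

/-- two permutations afforded by products -/
theorem Afford.sq (hq : 13 ≤ Fintype.card K) {m : GL chevG2.Idx K} {w : Equiv.Perm R} (h : Afford m w)
    (hm : m ∈ normalizer (chevG2.diagonalSubgroup K : Set (GL chevG2.Idx K)))
    (h2 : ∀ t ∈ chevG2.diagonalSubgroup K, m ^ 2 * t = t * m ^ 2) (s : R) : w (w s) = s := by
  apply chi_inj hq
  intro t ht
  have h3 := h.chi _ (conj_mem hm ht) (w s)
  rw [h.chi _ ht] at h3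
  rw [← h3]
  congr 1
  have h4 := h2 t ht
  rw [pow_two] at h4
  calc t = t * (m * m) * (m * m)⁻¹ := by group
    _ = m * m * t * (m * m)⁻¹ := by rw [h4]
    _ = m * (m * t * m⁻¹) * m⁻¹ := by group

section Main

open scoped Classical in
/-- the exponents of `h_r` on the adjoint module -/
def ex (r : R) : chevG2.Idx → ℤ := Sum.elim (fun _ => 0) (fun s => P r s)

omit [Fintype K] in
theorem dco_eq (r : R) (c : Kˣ) : Cfsg.Agent.H428.OT.dco (ex r) c = hG (F := K) hD r (c : K) := by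
  apply Units.ext
  rw [Cfsg.Agent.H428.OT.coe_dco, coe_hG_diag hD r.2 c.ne_zero]
  congr 1
  funext x
  rcases x with i | s
  · simp only [ex, Sum.elim_inl, zpow_zero, Units.val_one]
  · simp only [ex, Sum.elim_inr, Units.val_zpow_eq_zpow_val]
    rfl

omit [Fintype K] in
theorem isDiag : Cfsg.Agent.H428.OT.IsDiagSub (chevG2.diagonalSubgroup K) := fun _ ht => ⟨_, coe_tor hD ht⟩

variable {F : Subgroup (GL chevG2.Idx K)}

/-- The facts on `F` in the ambient group. -/
structure Sit (K : Type u) [Field K] [Fintype K] (F : Subgroup (GL chevG2.Idx K)) : Prop where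
  card : 13 ≤ Fintype.card K
  tor : chevG2.diagonalSubgroup K ≤ F
  act : ∀ n ∈ F, n ∈ normalizer (chevG2.diagonalSubgroup K : Set (GL chevG2.Idx K)) → ∃ w : Equiv.Perm R, Afford n w
  ti : ∀ t ∈ chevG2.diagonalSubgroup K, t ∉ Zf F → ∀ g ∈ F, g * t * g⁻¹ ∈ chevG2.diagonalSubgroup K →
    g ∈ normalizer (chevG2.diagonalSubgroup K : Set (GL chevG2.Idx K))
  self : ∀ x ∈ F, (∀ t ∈ chevG2.diagonalSubgroup K, x * t = t * x) → x ∈ chevG2.diagonalSubgroup K
  psi : ∀ r : R, ∃ a : R, (a : ℕ) ∈ Psi chevG2 K F ∧ ¬ Even (P r a)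

theorem Sit.cent (h : Sit K F) {t : GL chevG2.Idx K} (ht : t ∈ chevG2.diagonalSubgroup K) (hZ : t ∉ Zf F)
    {g : GL chevG2.Idx K} (hg : g ∈ F) (hgt : g * t = t * g) :
    g ∈ normalizer (chevG2.diagonalSubgroup K : Set (GL chevG2.Idx K)) := by
  apply h.ti t ht hZ g hg
  rw [hgt, mul_inv_cancel_right]
  exact ht

theorem Sit.not_Zf (_ : Sit K F) {m g : GL chevG2.Idx K} (hg : g ∈ F) (hm : m ∉ Zf F) : g * m * g⁻¹ ∉ Zf F := by
  intro h1
  apply hm
  have h2 := (mem_Zf.1 h1).2 g hg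
  have h3 : g * m * g⁻¹ = m := by
    have h4 : g * (g * m * g⁻¹) = g * m := by rw [h2]; group
    exact mul_left_cancel h4
  rwa [h3] at h1

/-- **(K')** for `G2`. -/
theorem Sit.kp (h : Sit K F) {g m : GL chevG2.Idx K} (hg : g ∈ F)
    (hgN : g ∉ normalizer (chevG2.diagonalSubgroup K : Set (GL chevG2.Idx K)))
    (hgm : g * m * g⁻¹ ∈ chevG2.diagonalSubgroup K) (hmZ : m ∉ Zf F) {r : R}
    (hr : ∀ c : K, c ≠ 0 → m * hG hD r c * m⁻¹ = hG hD r c) : False := by
  have htZ := h.not_Zf hg hmZ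
  have hF : ∀ c : Kˣ, g * hG hD r (c : K) * g⁻¹ ∈ F := fun c =>
    mul_mem (mul_mem hg (h.tor (hG_mem hD r.2 c.ne_zero))) (inv_mem hg)
  have hN : ∀ c : Kˣ, g * hG hD r (c : K) * g⁻¹ ∈
      normalizer (chevG2.diagonalSubgroup K : Set (GL chevG2.Idx K)) := by
    intro c
    apply h.cent hgm htZ (hF c)
    have h1 := hr c c.ne_zero
    have h2 : m * hG hD r (c : K) = hG hD r (c : K) * m := by
      rw [mul_inv_eq_iff_eq_mul] at h1
      exact h1
    calc g * hG hD r (c : K) * g⁻¹ * (g * m * g⁻¹) = g * (hG hD r (c : K) * m) * g⁻¹ := by group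
      _ = g * (m * hG hD r (c : K)) * g⁻¹ := by rw [h2]
      _ = g * m * g⁻¹ * (g * hG hD r (c : K) * g⁻¹) := by group
  obtain ⟨a, ha, hodd⟩ := h.psi r
  obtain ⟨γ, hγ⟩ := exists_gen K
  rcases h.card.eq_or_lt with hc | hc
  · -- `q = 13`
    set n := g * hG hD r (γ : K) * g⁻¹ with hn
    obtain ⟨w, hw⟩ := h.act n (hF γ) (hN γ)
    have h6 : n ^ 6 ∈ chevG2.diagonalSubgroup K := by
      apply h.self _ (pow_mem (hF γ) 6)
      intro t ht
      have e : n * (n * (n * (n * (n * (n * t * n⁻¹) * n⁻¹) * n⁻¹) * n⁻¹) * n⁻¹) * n⁻¹ = n ^ 6 * t * (n ^ 6)⁻¹ := by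
        simp only [pow_succ, pow_zero, one_mul, mul_inv_rev]
        group
      have h1 := conj_mem (hN γ) ht
      have h2 := conj_mem (hN γ) h1
      have h3 := conj_mem (hN γ) h2
      have h4 := conj_mem (hN γ) h3
      have h5 := conj_mem (hN γ) h4
      have h6 := conj_mem (hN γ) h5
      have key : n * (n * (n * (n * (n * (n * t * n⁻¹) * n⁻¹) * n⁻¹) * n⁻¹) * n⁻¹) * n⁻¹ = t := by
        apply eq_of_chi h6 ht
        intro s
        rw [← w_six hw.pr s, hw.chi _ h5, hw.chi _ h4, hw.chi _ h3, hw.chi _ h2, hw.chi _ h1, hw.chi _ ht,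
          w_six hw.pr s]
      rw [e, mul_inv_eq_iff_eq_mul] at key
      exact key
    have hp : n ^ 6 = g * (hG hD r (γ : K)) ^ 6 * g⁻¹ := by rw [hn, conj_pow]
    rw [hp] at h6
    have hT6 : (hG hD r (γ : K)) ^ 6 ∈ chevG2.diagonalSubgroup K := pow_mem (hG_mem hD r.2 γ.ne_zero) 6
    have hZ6 : (hG hD r (γ : K)) ^ 6 ∈ Zf F := by
      by_contra h7
      exact hgN (h.ti _ hT6 h7 g hg h6)
    have h8 := ha.2 _ hZ6
    rw [chi_pow (hG_mem hD r.2 γ.ne_zero), chi_h γ.ne_zero] at h8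
    have h9 : (γ : K) ^ (P r a * 6) = (γ : K) ^ (0 : ℤ) := by
      rw [zpow_mul, zpow_zero]
      exact_mod_cast h8
    have h10 := eq_of_zpow hγ h9
    rw [← hc] at h10
    apply hodd
    rw [Int.even_iff]
    have : ((13 - 1 : ℕ) : ℤ) = 12 := by norm_num
    rw [this] at h10
    omega
  · -- `q > 13`: the Laurent trick
    have hlau : g * hG hD r (γ : K) * g⁻¹ ∈ chevG2.diagonalSubgroup K := by
      apply h.self _ (hF γ)
      have h1 := Cfsg.Agent.H428.OT.lau (T := chevG2.diagonalSubgroup K) isDiag (a := -3) (D := 6) (s := 2)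
        (fun d hd hd1 => by
          have : d ≠ 0 := by
            rintro rfl
            have := Nat.eq_zero_of_zero_dvd hd
            omega
          omega)
        (by omega) (e := ex r) (fun x => by
          rcases x with i | s
          · simp only [ex, Sum.elim_inl]; norm_num
          · simp only [ex, Sum.elim_inr]
            have := P_bd r s
            constructor
            · exact this.1
            · push_cast; linarith [this.2]) g
        (fun c => by rw [dco_eq]; exact hN c) γ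
      rw [dco_eq] at h1
      exact h1
    have hZ : hG hD r (γ : K) ∈ Zf F := by
      by_contra h7
      exact hgN (h.ti _ (hG_mem hD r.2 γ.ne_zero) h7 g hg hlau)
    have h8 := ha.2 _ hZ
    rw [chi_h γ.ne_zero] at h8
    have h9 : (γ : K) ^ (P r a) = (γ : K) ^ (0 : ℤ) := by rw [h8, zpow_zero]
    have h10 := eq_of_zpow hγ h9
    rw [sub_zero] at h10
    apply hodd
    have h11 : P r a = 0 := by
      apply Int.eq_zero_of_abs_lt_dvd h10
      have b := P_bd r a
      have : (13 : ℤ) ≤ ((Fintype.card K - 1 : ℕ) : ℤ) := by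
        have : 13 ≤ Fintype.card K - 1 := by omega
        exact_mod_cast this
      rw [abs_lt]
      constructor <;> linarith [b.1, b.2]
    rw [h11]
    exact Even.zero

/-- a bad element inverts `T` -/
theorem Sit.inv (h : Sit K F) {g m : GL chevG2.Idx K} (hg : g ∈ F)
    (hgN : g ∉ normalizer (chevG2.diagonalSubgroup K : Set (GL chevG2.Idx K))) (hm : m ∈ F)
    (hmN : m ∈ normalizer (chevG2.diagonalSubgroup K : Set (GL chevG2.Idx K)))
    (hgm : g * m * g⁻¹ ∈ chevG2.diagonalSubgroup K) (hm2 : m ^ 2 ∈ Zf F) (hmZ : m ∉ Zf F) :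
    ∀ t ∈ chevG2.diagonalSubgroup K, m * t * m⁻¹ = t⁻¹ := by
  obtain ⟨w, hw⟩ := h.act m hm hmN
  have hww : ∀ s, w (w s) = s := hw.sq h.card hmN fun t ht => ((mem_Zf.1 hm2).2 t (h.tor ht)).symm
  rcases w_two hw.pr hww with ⟨r, hr⟩ | hneg
  · exfalso
    refine h.kp hg hgN hgm hmZ (r := r) fun c hc => ?_
    rw [hw.conj_h hmN hc, hr]
  · intro t ht
    apply eq_of_chi (conj_mem hmN ht) (inv_mem ht)
    intro s
    obtain ⟨s, rfl⟩ := w.surjective s
    rw [hw.chi t ht, hneg, chi_inv' ht, chi_ng ht, inv_inv]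

/-- **3.1 / 3.2 for `G2`.** -/
theorem Sit.noEl_two (h : Sit K F) (h2 : (2 : K) ≠ 0) : NoElF chevG2 K F 2 := by
  intro g hg hgN m hm hmN hgm hm2
  by_contra hmZ
  have hinv := h.inv hg hgN hm hmN hgm hm2 hmZ
  have htZ := h.not_Zf hg hmZ
  have hneg1 : (-1 : K) ≠ 0 := by simp
  have hg' : g⁻¹ ∉ normalizer (chevG2.diagonalSubgroup K : Set (GL chevG2.Idx K)) := fun h1 => hgN (by
    have := inv_mem h1
    rwa [inv_inv] at this)
  -- the involutions
  have hsq : ∀ r : R, hG (F := K) hD r (-1) * hG hD r (-1) = 1 := by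
    intro r
    apply eq_of_chi (mul_mem (hG_mem hD r.2 hneg1) (hG_mem hD r.2 hneg1)) (one_mem _)
    intro s
    rw [chi_mul hD (hG_mem hD r.2 hneg1) (hG_mem hD r.2 hneg1), chi_h hneg1, chi_one, ← mul_zpow]
    simp
  have hEv : ∀ k : ℤ, ((-1 : K)) ^ k = 1 → Even k := by
    intro k hk
    by_contra ho
    rw [Int.not_even_iff_odd] at ho
    rw [ho.neg_one_zpow] at hk
    apply h2
    have : (1 : K) + 1 = 0 := by
      nth_rewrite 1 [← hk]
      ring
    rw [← this]; norm_num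
  have hnZ : ∀ r : R, hG (F := K) hD r (-1) ∉ Zf F := by
    intro r hr
    obtain ⟨a, ha, hodd⟩ := h.psi r
    have h8 := ha.2 _ hr
    rw [chi_h hneg1] at h8
    exact hodd (hEv _ h8)
  have hnZ' : hG (F := K) hD s0 (-1) * hG hD s1 (-1) ∉ Zf F := by
    intro hr
    obtain ⟨r, hr'⟩ := tab_sum
    obtain ⟨a, ha, hodd⟩ := h.psi r
    have h8 := ha.2 _ hr
    rw [chi_mul hD (hG_mem hD s0.2 hneg1) (hG_mem hD s1.2 hneg1), chi_h hneg1, chi_h hneg1,
      ← zpow_add₀ hneg1] at h8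
    exact hodd ((hr' a).2 (hEv _ h8))
  -- the conjugates of the involutions invert `T`
  have hE : ∀ r : R, ∀ t ∈ chevG2.diagonalSubgroup K,
      (g * hG hD r (-1) * g⁻¹) * t * (g * hG hD r (-1) * g⁻¹)⁻¹ = t⁻¹ := by
    intro r
    have hTr : hG (F := K) hD r (-1) ∈ chevG2.diagonalSubgroup K := hG_mem hD r.2 hneg1
    have hFr : g * hG hD r (-1) * g⁻¹ ∈ F := mul_mem (mul_mem hg (h.tor hTr)) (inv_mem hg)
    have hi : (hG (F := K) hD r (-1))⁻¹ = hG hD r (-1) := inv_eq_of_mul_eq_one_left (hsq r)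
    have hc : g * hG hD r (-1) * g⁻¹ * (g * m * g⁻¹) = g * m * g⁻¹ * (g * hG hD r (-1) * g⁻¹) := by
      have h1 := hinv _ hTr
      rw [hi, mul_inv_eq_iff_eq_mul] at h1
      calc g * hG hD r (-1) * g⁻¹ * (g * m * g⁻¹) = g * (hG hD r (-1) * m) * g⁻¹ := by group
        _ = g * (m * hG hD r (-1)) * g⁻¹ := by rw [h1]
        _ = g * m * g⁻¹ * (g * hG hD r (-1) * g⁻¹) := by group
    have hNr := h.cent hgm htZ hFr hc
    apply h.inv (inv_mem hg) hg' hFr hNr
    · have : g⁻¹ * (g * hG (F := K) hD r (-1) * g⁻¹) * g⁻¹⁻¹ = hG hD r (-1) := by group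
      rw [this]
      exact hTr
    · have : (g * hG (F := K) hD r (-1) * g⁻¹) ^ 2 = 1 := by
        rw [conj_pow, pow_two, hsq r, mul_one, mul_inv_cancel]
      rw [this]
      exact one_mem _
    · exact h.not_Zf hg (hnZ r)
  have hTT : hG (F := K) hD s0 (-1) * hG hD s1 (-1) ∈ chevG2.diagonalSubgroup K :=
    mul_mem (hG_mem hD s0.2 hneg1) (hG_mem hD s1.2 hneg1)
  apply hgN
  apply h.ti _ hTT hnZ' g hg
  apply h.self _ (mul_mem (mul_mem hg (h.tor hTT)) (inv_mem hg))
  intro t ht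
  have e : g * (hG (F := K) hD s0 (-1) * hG hD s1 (-1)) * g⁻¹ =
      (g * hG hD s0 (-1) * g⁻¹) * (g * hG hD s1 (-1) * g⁻¹) := by group
  have h3 := hE s0 _ (inv_mem ht)
  rw [inv_inv, ← hE s1 t ht] at h3
  rw [e, ← mul_inv_eq_iff_eq_mul]
  calc _ = g * hG (F := K) hD s0 (-1) * g⁻¹ * (g * hG hD s1 (-1) * g⁻¹ * t * (g * hG hD s1 (-1) * g⁻¹)⁻¹) *
        (g * hG hD s0 (-1) * g⁻¹)⁻¹ := by group
    _ = t := h3

omit [Fintype K] in
theorem ctx_ti {D : ChevalleyDatum} {F : Subgroup (GL D.Idx K)} (hT : D.diagonalSubgroup K ≤ F)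
    (ctx : H298.OT.Ctx ((D.diagonalSubgroup K).subgroupOf F)) {t : GL D.Idx K} (ht : t ∈ D.diagonalSubgroup K)
    (hZ : t ∉ Zf F) {g : GL D.Idx K} (hg : g ∈ F) (hgt : g * t * g⁻¹ ∈ D.diagonalSubgroup K) :
    g ∈ normalizer (D.diagonalSubgroup K : Set (GL D.Idx K)) := by
  have h0 : (⟨t, hT ht⟩ : F) ∈ (D.diagonalSubgroup K).subgroupOf F := mem_subgroupOf.2 ht
  have h1 : (⟨t, hT ht⟩ : F) ∉ center F := fun h2 => hZ (coe_mem_Zf.2 h2)
  have h2 : (⟨g, hg⟩ : F) * ⟨t, hT ht⟩ * (⟨g, hg⟩ : F)⁻¹ ∈ (D.diagonalSubgroup K).subgroupOf F := by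
    rw [mem_subgroupOf, coe_mul, coe_mul, coe_inv]
    exact hgt
  have h3 := ctx.ti h0 h1 h2
  have h4 := (mem_normalizer_subgroupOf hT).1 h3
  exact h4

omit [Fintype K] in
theorem ctx_self {D : ChevalleyDatum} {F : Subgroup (GL D.Idx K)}
    (ctx : H298.OT.Ctx ((D.diagonalSubgroup K).subgroupOf F)) {x : GL D.Idx K} (hx : x ∈ F)
    (hxt : ∀ t ∈ D.diagonalSubgroup K, x * t = t * x) : x ∈ D.diagonalSubgroup K := by
  have h1 : (⟨x, hx⟩ : F) ∈ centralizer (((D.diagonalSubgroup K).subgroupOf F : Subgroup F) : Set F) := by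
    rw [mem_centralizer_iff]
    intro t ht
    exact Subtype.ext (hxt t (mem_subgroupOf.1 ht)).symm
  exact mem_subgroupOf.1 (ctx.cent h1)

/-- The constructor from the context of helper298. -/
theorem Sit.of_ctx (hq : 13 ≤ Fintype.card K) (hT : chevG2.diagonalSubgroup K ≤ F)
    (ctx : H298.OT.Ctx ((chevG2.diagonalSubgroup K).subgroupOf F))
    (act : ∀ n ∈ F, n ∈ normalizer (chevG2.diagonalSubgroup K : Set (GL chevG2.Idx K)) →
      ∃ w : Equiv.Perm R, Afford n w)
    (psi : ∀ r : R, ∃ a : R, (a : ℕ) ∈ Psi chevG2 K F ∧ ¬ Even (P r a)) : Sit K F where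
  card := hq
  tor := hT
  act := act
  ti := by
    intro t ht hZ g hg hgt
    exact ctx_ti hT ctx ht hZ hg hgt
  self := by
    intro x hx hxt
    exact ctx_self ctx hx hxt
  psi := psi

theorem tab_ev : ∀ r a b : R, Even (P r a) → Even (P r b) → P a b ≠ 0 → b = a ∨ b = ng a := by decide +kernel

theorem tab_ng_ng : ∀ a : R, ng (ng a) = a := by decide +kernel

theorem tab_neg_eq : ∀ a : R, chevG2.neg a = ng a := by decide +kernel

omit [Fintype K] in
/-- `Psi` irreducible of rank at least two. -/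
theorem psi_of (hirr : ∀ a ∈ Psi chevG2 K F, ∀ b ∈ Psi chevG2 K F,
      Relation.ReflTransGen (fun x y => y ∈ Psi chevG2 K F ∧ pr chevG2 x y ≠ 0) a b)
    (hrk : ∀ a < chevG2.nroots, ¬ Psi chevG2 K F ⊆ {a, chevG2.neg a}) (r : R) :
    ∃ a : R, (a : ℕ) ∈ Psi chevG2 K F ∧ ¬ Even (P r a) := by
  by_contra hcon
  push Not at hcon
  by_cases hne : (Psi chevG2 K F).Nonempty
  · obtain ⟨a, ha⟩ := hne
    apply hrk a ha.1
    intro b hb
    have h1 := hirr a ha b hb
    clear hb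
    induction h1 with
    | refl => exact Or.inl rfl
    | @tail x y hx hy ih =>
      have hxP : x ∈ Psi chevG2 K F := by
        rcases ih with rfl | ih
        · exact ha
        · have hx' : x ∈ Psi chevG2 K F ∨ x = a := by
            clear ih hy
            induction hx with
            | refl => exact Or.inr rfl
            | tail _ h _ => exact Or.inl h.1
          rcases hx' with h | h
          · exact h
          · rw [h]; exact ha
      have h2 := tab_ev r ⟨x, hxP.1⟩ ⟨y, hy.1.1⟩ (hcon _ hxP) (hcon _ hy.1) hy.2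
      have e1 := tab_neg_eq ⟨a, ha.1⟩
      have e2 := tab_ng_ng ⟨a, ha.1⟩
      rcases h2 with h2 | h2
      · rw [Fin.mk.injEq] at h2
        rw [h2]
        exact ih
      · have h3 : y = ng ⟨x, hxP.1⟩ := congrArg Fin.val h2
        rcases ih with rfl | ih
        · refine Or.inr ?_
          rw [Set.mem_singleton_iff, e1, h3]
        · refine Or.inl ?_
          rw [Set.mem_singleton_iff, e1] at ih
          have h4 : (⟨x, hxP.1⟩ : R) = ng ⟨a, ha.1⟩ := Fin.ext ih
          rw [h3, h4, e2]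
  · apply hrk 0 (by decide)
    intro b hb
    exact absurd ⟨b, hb⟩ hne

end Main

end Cfsg.Agent.H18.OT
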